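import Cfsg.Agent.Deg.Lin
import Cfsg.Agent.Geom.Classify
import Cfsg.Agent.Classical.SUSimple

/-!
Lower bounds for the degrees of representations of `SU_n(q)` in cross characteristic (lead): the model `suM`,
`su_bound`.
-/

set_option autoImplicit false

namespace Cfsg.Agent.Deg

open Module Matrix

variable {F : Type*} [Field F] {ι r : Type} [Fintype ι] [DecidableEq ι] [Fintype r] [DecidableEq r] {σ : F →+* F}

section cT
variable {α β γ : Type*} [Fintype α] [DecidableEq α]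

@[simp] theorem cT_apply (A : Matrix α β F) (i : β) (j : α) : cT σ A i j = σ (A j i) := rfl

theorem cT_mul [Fintype β] (A : Matrix α β F) (B : Matrix β γ F) [Fintype γ] [DecidableEq γ] [DecidableEq β] :
    cT σ (A * B) = cT σ B * cT σ A := by
  simp [cT, Matrix.map_mul]

theorem cT_one : cT σ (1 : Matrix α α F) = 1 := by simp [cT]

theorem det_cT (A : Matrix α α F) : det (cT σ A) = σ (det A) := by rw [cT, det_transpose, RingHom.map_det]; rfl

end cT

/-- The Gram matrix of the model. -/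
def jM (ι r : Type) [DecidableEq ι] [DecidableEq r] (F : Type*) [Field F] : Matrix (ι ⊕ r ⊕ ι) (ι ⊕ r ⊕ ι) F :=
  fromBlocks 0 (fromCols 0 1) (fromRows 0 1) (fromBlocks 1 0 0 0)

/-- The model of the special unitary group. -/
def suM (ι r : Type) [Fintype ι] [DecidableEq ι] [Fintype r] [DecidableEq r] (σ : F →+* F) :
    Subgroup (SpecialLinearGroup (ι ⊕ r ⊕ ι) F) where
  carrier := {g | cT σ g.1 * jM ι r F * g.1 = jM ι r F}
  one_mem' := by simp [cT_one]
  mul_mem' {g h} hg hh := by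
    change _ = _ at hg hh ⊢
    rw [sl_mul_val, cT_mul, Matrix.mul_assoc, Matrix.mul_assoc, ← Matrix.mul_assoc (jM ι r F), ← Matrix.mul_assoc _ _ h.1,
      ← Matrix.mul_assoc (cT σ g.1), hg, ← Matrix.mul_assoc, hh]
  inv_mem' {g} hg := by
    change _ = _ at hg ⊢
    rw [← hg, ← Matrix.mul_assoc, ← Matrix.mul_assoc, ← cT_mul, Matrix.mul_assoc _ g.1, ← sl_mul_val, mul_inv_cancel]
    simp [cT_one, hg]

/-- Unipotent elements. -/
def nM (x : Matrix ι r F) (S : Matrix ι ι F) : SpecialLinearGroup (ι ⊕ r ⊕ ι) F :=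
  slMk (fromBlocks 1 (fromCols (-x) S) 0 (fromBlocks 1 (cT σ x) 0 1)) (by simp [det_fromBlocks_zero₂₁])

theorem nM_mem (hσ : ∀ x, σ (σ x) = x) {x : Matrix ι r F} {S : Matrix ι ι F} (h : S + cT σ S + x * cT σ x = 0) :
    nM (σ := σ) x S ∈ suM ι r σ := by
  change _ = _
  ext (i | i | i) (j | j | j) <;>
    simp [nM, jM, mul_apply, Fintype.sum_sum_type, one_apply, apply_ite σ, hσ, eq_comm]
  have := congrFun (congrFun h i) j
  simp [mul_apply] at this
  linear_combination -this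

theorem nM_mul (x y : Matrix ι r F) (S T : Matrix ι ι F) :
    nM (σ := σ) x S * nM (σ := σ) y T = nM (σ := σ) (x + y) (S + T - x * cT σ y) := Subtype.ext (by
  ext (i | i | i) (j | j | j) <;> simp [nM, mul_apply, Fintype.sum_sum_type, one_apply] <;> ring)

/-- Levi elements. -/
noncomputable def lM (g : Matrix ι ι F) (hg : det g ≠ 0) (h : Fintype.card r = 1 ∨ det g = 1) : SpecialLinearGroup (ι ⊕ r ⊕ ι) F :=
  slMk (fromBlocks g 0 0 (fromBlocks ((σ (det g) / det g) • 1) 0 0 (cT σ g)⁻¹)) (by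
    have : σ (det g) ≠ 0 := by simpa using hg
    rcases h with h | h <;> simp [det_fromBlocks_zero₂₁, det_cT, h]
    field_simp)

theorem lM_mem (hσ : ∀ x, σ (σ x) = x) (g : Matrix ι ι F) (hg : det g ≠ 0) (h : Fintype.card r = 1 ∨ det g = 1) :
    lM (σ := σ) g hg h ∈ suM ι r σ := by
  have h0 : σ (det g) ≠ 0 := by simpa using hg
  have h1 : cT σ g * (cT σ g)⁻¹ = 1 := mul_nonsing_inv _ (by simpa [det_cT] using hg)
  have h2 : cT σ (cT σ g)⁻¹ * g = 1 := by
    have := congrArg (cT σ) h1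
    rwa [cT_mul, cT_one, show cT σ (cT σ g) = g by ext; simp [hσ]] at this
  have e : cT σ (lM (σ := σ) g hg h).1 =
      fromBlocks (cT σ g) 0 0 (fromBlocks ((det g / σ (det g)) • 1) 0 0 (cT σ (cT σ g)⁻¹)) := by
    ext (i | i | i) (j | j | j) <;> simp [lM, one_apply, apply_ite σ, hσ, eq_comm]
  change _ = _
  rw [e]
  simp [lM, jM, fromBlocks_multiply, fromCols_mul_fromBlocks, fromBlocks_mul_fromRows, h1, h2, smul_smul,
    div_mul_div_cancel₀ hg, h0]

theorem lM_nM (g : Matrix ι ι F) (hg : det g ≠ 0) (h : Fintype.card r = 1 ∨ det g = 1) (S : Matrix ι ι F) :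
    lM (σ := σ) g hg h * nM (σ := σ) 0 S = nM (σ := σ) (0 : Matrix ι r F) (g * S * cT σ g) * lM (σ := σ) g hg h := by
  have h1 : cT σ g * (cT σ g)⁻¹ = 1 := mul_nonsing_inv _ (by simpa [det_cT] using hg)
  have e : cT σ (0 : Matrix ι r F) = 0 := by ext; simp
  exact Subtype.ext (by simp [lM, nM, e, fromBlocks_multiply, fromCols_mul_fromBlocks, Matrix.mul_assoc, h1])

theorem exists_hom [Fintype F] {q n : ℕ} (hF : Fintype.card F = q ^ 2)
    (hn : Fintype.card ι + (Fintype.card r + Fintype.card ι) = n) :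
    ∃ φ : suM ι r (Geom.frobq hF) →* SU n F q, 2 ≤ n → ∀ g, φ g ∈ Subgroup.center _ → ∃ a : F, g.1.1 = a • 1 := by
  have hJ : cT (Geom.frobq hF) (jM ι r F) = jM ι r F := by
    ext (i | i | i) (j | j | j) <;> simp [jM, one_apply, apply_ite (Geom.frobq hF), eq_comm, -Geom.frobq_apply]
  have hJ2 : jM ι r F * jM ι r F = 1 := by
    ext (i | i | i) (j | j | j) <;> simp [jM, mul_apply, Fintype.sum_sum_type, one_apply]
  let B := toLinearMapₛₗ₂' F (Geom.frobq hF) (RingHom.id F) (jM ι r F)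
  have hB : ∀ u v, B u v = (Geom.frobq hF ∘ u) ⬝ᵥ jM ι r F *ᵥ v := fun u v => by
    simp only [B, toLinearMapₛₗ₂'_apply, dotProduct, mulVec, Finset.mul_sum, smul_eq_mul, RingHom.id_apply,
      Function.comp_apply, mul_comm (v _)]
  have hm : ∀ (A : Matrix (ι ⊕ r ⊕ ι) (ι ⊕ r ⊕ ι) F) u, Geom.frobq hF ∘ (A *ᵥ u) =
      (Geom.frobq hF ∘ u) ᵥ* cT (Geom.frobq hF) A := fun A u => by
    funext i
    simp [mulVec, vecMul, dotProduct, mul_comm, -Geom.frobq_apply]
  obtain ⟨e, he⟩ := Geom.exists_isIso_hermFormed hF (Φ := Geom.Formed.ofHerm (Geom.frobq_ne_id hF) (Geom.frobq_frobq hF)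
    B ⟨fun u v => by
      rw [hB, hB, RingHom.map_dotProduct, hm, hJ, dotProduct_mulVec, dotProduct_comm]
      congr 1
      funext i
      exact Geom.frobq_frobq hF _⟩)
    (fun x hx => funext fun i => by
      have := hx (jM ι r F *ᵥ Pi.single i 1)
      rw [Geom.Formed.ofHerm_B, hB, mulVec_mulVec, hJ2, one_mulVec] at this
      simpa [-Geom.frobq_apply] using this) rfl (n := n) (by simpa using hn)
  refine ⟨((slConj e).comp (suM ι r _).subtype).codRestrict _ fun g u v => ?_, fun h g hg => ?_⟩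
  swap
  · have := Fact.mk hF
    obtain ⟨a, ha⟩ := (Classical.mem_center_SU_iff h).1 hg
    refine ⟨a, ext_iff_mulVec.2 fun v => e.injective ?_⟩
    simpa [smul_mulVec] using ((slConj_mulVec e g.1 (e v)).symm.trans (congrArg (· *ᵥ e v) ha))
  change hermForm n F q ((slConj e g.1).1 *ᵥ u) ((slConj e g.1).1 *ᵥ v) = _
  obtain ⟨u, rfl⟩ := e.surjective u
  obtain ⟨v, rfl⟩ := e.surjective v
  have h1 : ∀ u v, hermForm n F q (e u) (e v) = B v u := fun u v => he.1 v u
  rw [slConj_mulVec, slConj_mulVec, h1, h1, hB, hB, e.symm_apply_apply, e.symm_apply_apply, hm, mulVec_mulVec,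
    ← dotProduct_mulVec, mulVec_mulVec, ← Matrix.mul_assoc, g.2]

theorem card_norm_le [Fintype F] [DecidableEq F] {q : ℕ} (hF : Fintype.card F = q ^ 2) (c : F) :
    (Finset.univ.filter fun t => t * Geom.frobq hF t = c).card ≤ q + 1 := by
  refine le_trans (Finset.card_le_card (t := (Polynomial.nthRoots (q + 1) c).toFinset) fun t ht => ?_)
    ((Multiset.toFinset_card_le _).trans (Polynomial.card_nthRoots _ _))
  simpa [pow_succ'] using (Finset.mem_filter.1 ht).2

theorem su_bound [Fintype F] {q n : ℕ} (hF : Fintype.card F = q ^ 2)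
    (hn : Fintype.card ι + (Fintype.card r + Fintype.card ι) = n) {K : Type*} [Field K] {V : Type*} [AddCommGroup V]
    [Module K V] [FiniteDimensional K V] {ψ₀ : AddChar F K} (hψ₀ : ψ₀ ≠ 1) (hK : (Fintype.card F : K) ≠ 0)
    {ρ : SU n F q →* End K V} (hρ : ρ.ker ≤ Subgroup.center _) {d : ℕ}
    (h : (d = 1 ∧ Nontrivial ι) ∨ (d = q ∧ Nonempty ι ∧ Fintype.card r = 1)) :
    (q ^ (2 * Fintype.card ι) - 1) * d ≤ (q + 1) * finrank K V := by
  classical
  obtain ⟨φ, hφ⟩ := exists_hom hF hn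
  let σ := Geom.frobq hF
  have hσ : ∀ x, σ (σ x) = x := Geom.frobq_frobq hF
  obtain ⟨x₀, hx₀⟩ : ∃ x, σ x ≠ x := by
    by_contra! h
    exact Geom.frobq_ne_id hF (RingHom.ext h)
  have hx : ∃ x, x + σ x ≠ 0 := by
    by_contra! h
    have h1 := h 1
    have h2 := h x₀
    rw [map_one] at h1
    exact hx₀ (by linear_combination h2 - x₀ * h1)
  obtain ⟨ψ, hψ, hψσ⟩ := exists_psi hψ₀ σ hσ hx
  obtain ⟨δ, hδ0, hδ⟩ : ∃ δ, δ ≠ 0 ∧ σ δ = -δ := ⟨σ x₀ - x₀, sub_ne_zero.2 hx₀, by simp [hσ]⟩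
  obtain ⟨i⟩ : Nonempty ι := by rcases h with ⟨-, h⟩ | ⟨-, h, -⟩ <;> infer_instance
  let u : Matrix ι ι F → suM ι r σ := fun Y => ⟨nM (σ := σ) 0 (δ • (Y + cT σ Y)), nM_mem hσ (by
    ext i j; simp [hδ, hσ])⟩
  have hl : ∀ g : Matrix ι ι F, det g ≠ 0 → (Fintype.card r = 1 ∨ det g = 1) →
      ∃ l, ∀ Y, l * u Y * l⁻¹ = u (cj σ g Y) := fun g hg h => ⟨⟨_, lM_mem hσ g hg h⟩, fun Y => by
    rw [mul_inv_eq_iff_eq_mul]
    refine Subtype.ext ((lM_nM g hg h _).trans ?_)
    have : cT σ (cT σ g) = g := by ext; simp [hσ]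
    simp [u, cj_apply, cT_mul, this, Matrix.mul_add, Matrix.add_mul, Matrix.mul_assoc]⟩
  have hadd : ∀ Y Z, u (Y + Z) = u Y * u Z := fun Y Z => Subtype.ext (by
    simp only [u, Subgroup.coe_mul, nM_mul]
    congr 1
    · simp
    · ext; simp; ring)
  obtain ⟨x₁, hx₁⟩ := id hx
  have := sieg_bound (ρ := ρ.comp φ) (u := u) hψ hK hσ hψσ hx (card_norm_le hF) hadd
    (fun Y => by simp only [u, show cT σ (cT σ Y) = Y by ext; simp [hσ], add_comm])
    (fun y x h => hl _ (by simp [det_one_add_vv, h]) (.inr (by simp [det_one_add_vv, h])))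
    (fun y y' hy hy' => ?_) (d := d) (fun L e he hL => ?_) (Y₀ := single i i x₁) fun e => ?_
  · rwa [hF, ← pow_mul] at this
  · rcases h with ⟨-, h⟩ | ⟨-, -, h⟩
    · obtain ⟨g, hg, e⟩ := exists_det_one_mulVec hy hy'
      exact ⟨g, e, hl g (by simp [hg]) (.inr hg)⟩
    · obtain ⟨g, hg, e⟩ := exists_det_ne_mulVec hy hy'
      exact ⟨g, e, hl g hg (.inl h)⟩
  · rcases h with ⟨rfl, -⟩ | ⟨rfl, -, h⟩
    · exact Nat.one_le_iff_ne_zero.2 fun h' => hL (Submodule.finrank_eq_zero.1 h')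
    obtain ⟨⟨k⟩, hk⟩ := Fintype.card_eq_one_iff_nonempty_unique.1 h
    obtain ⟨a, ha⟩ : ∃ a, a + σ a = 1 := by
      obtain ⟨x, hx⟩ := hx
      exact ⟨x / (x + σ x), by rw [map_div₀, map_add, hσ, add_comm (σ x), ← add_div, div_self hx]⟩
    let w : F → suM ι r σ := fun t => ⟨nM (σ := σ) (replicateCol r (t • e)) (-(a * t * σ t) • vecMulVec e (σ ∘ e)),
      nM_mem hσ (by
        ext i j
        simp [mul_apply, h, vecMulVec_apply, hσ]
        linear_combination (-t * σ t * e i * σ (e j)) * ha)⟩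
    have hc : ∀ t Y, u Y * w t = w t * u Y := fun t Y => Subtype.ext (by
      simp only [u, w, Subgroup.coe_mul, nM_mul]
      congr 1
      · simp
      · ext; simp [mul_apply]; ring)
    have hw : ∀ s t, w s * w t = u ((δ⁻¹ * t * σ s) • vecMulVec e (σ ∘ e)) * (w t * w s) := fun s t => Subtype.ext (by
      simp only [u, w, Subgroup.coe_mul, nM_mul]
      congr 1
      · simp [add_comm]
      · ext; simp [mul_apply, h, vecMulVec_apply, hσ, hδ]; field_simp; ring)
    have hm : ∀ g : suM ι r σ, (∀ Y, u Y * g = g * u Y) → ∀ v ∈ wt (ρ.comp φ) ψ u L,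
        (ρ.comp φ) g v ∈ wt (ρ.comp φ) ψ u L := fun g hg v hv Y => by
      rw [← Module.End.mul_apply, ← map_mul, hg, map_mul, Module.End.mul_apply, hv, map_smul]
    have hc' : ∀ t Y, u Y * (w t)⁻¹ = (w t)⁻¹ * u Y := fun t Y => by
      rw [mul_inv_eq_iff_eq_mul, mul_assoc, hc, inv_mul_cancel_left]
    have := Submodule.nontrivial_iff_ne_bot.2 hL
    have h2 := heis (T := F) (χ := fun t => ψ.compAddMonoidHom
        ((AddMonoidHom.mulLeft (δ⁻¹ * t * frm σ L e e)).comp σ.toAddMonoidHom))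
      (fun s t e' => mul_left_cancel₀ (inv_ne_zero hδ0) (mul_right_cancel₀ he (eq_of_psi hψ fun c => by
        simpa [hσ, mul_comm] using DFunLike.congr_fun e' (σ c))))
      (fun t => ((ρ.comp φ) (w t)).restrict (hm _ (hc t))) (fun t => ((ρ.comp φ) (w t)⁻¹).restrict (hm _ (hc' t)))
      (fun t => LinearMap.ext fun v => Subtype.ext ?_) (fun t => LinearMap.ext fun v => Subtype.ext ?_)
      fun s t => LinearMap.ext fun v => Subtype.ext ?_
    · rw [Nat.card_eq_fintype_card, hF] at h2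
      exact (Nat.pow_le_pow_iff_left two_ne_zero).1 h2
    · change ((ρ.comp φ) _ * (ρ.comp φ) _) v.1 = v.1
      rw [← map_mul, inv_mul_cancel, map_one, Module.End.one_apply]
    · change ((ρ.comp φ) _ * (ρ.comp φ) _) v.1 = v.1
      rw [← map_mul, mul_inv_cancel, map_one, Module.End.one_apply]
    · change ((ρ.comp φ) _ * (ρ.comp φ) _) v.1 = ψ _ • (ρ.comp φ) _ ((ρ.comp φ) _ v.1)
      rw [← map_mul, hw, map_mul, map_mul, Module.End.mul_apply, Module.End.mul_apply,
        hm _ (hc t) _ (hm _ (hc s) _ v.2), L.map_smul]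
      congr 2
      simp [frm]
      ring
  · obtain ⟨a, ha⟩ := hφ (by have := Fintype.card_pos_iff.2 ⟨i⟩; omega) (u (single i i x₁)) (hρ e)
    simpa [u, nM, hδ0, hx₁, ← mul_add] using congrFun (congrFun ha (.inl i)) (.inr (.inr i))

theorem su_ker [Fintype F] {q n : ℕ} (hF : Fintype.card F = q ^ 2) (hn : 3 ≤ n) (h : (n, q) ≠ (3, 2)) {k : ℕ}
    (ρ : Representation ℂ (SU n F q) (Fin k → ℂ)) (hρ : ρ.IsIrreducible) (hk : 2 ≤ k) :
    MonoidHom.ker ρ ≤ Subgroup.center _ := by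
  have := Fact.mk hF
  obtain ⟨g, hg⟩ := exists_ne_one ρ hρ hk
  have h' : ¬ (n = 3 ∧ q = 2) := fun h' => h (by simp [h'])
  exact ker_le_center ⟨⟨Classical.commutator_SU_eq_top hn h'⟩, Classical.isSimpleGroup_PSU hn h'⟩ ρ hg

end Cfsg.Agent.Deg
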